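import Groth.Prelude.Def_ModelsG
import Groth.Agent.S2209

set_option autoImplicit false
universe u
open CategoryTheory CategoryTheory.Limits AlgebraicGeometry

/-!
# Connectedness of the closed fibre in terms of its components

* `exists_mem_maximal`: every point of a set `S` lies in a maximal irreducible subset of `S`.
* `exists_inter_nonempty`: if a closed preconnected set `S` has finitely many maximal irreducible
  subsets `Z i`, then for every nonempty proper set of indices `I` some `Z i`, `i ∈ I`, meets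
  some `Z j`, `j ∉ I`.
* `isConnected_specialFibreSet`: the closed fibre (as a set) of a regular proper model is connected.
* `components_meet`: the combination.
-/

namespace Groth.Agent.Models.H42.FibreConn

theorem exists_mem_maximal {X : Type*} [TopologicalSpace X] (S : Set X) {x : X} (hx : x ∈ S) :
    ∃ Z : Set X, Maximal (fun T : Set X => IsIrreducible T ∧ T ⊆ S) Z ∧ x ∈ Z := by
  obtain ⟨m, hxm, hm⟩ := zorn_subset_nonempty {t : Set X | IsPreirreducible t ∧ t ⊆ S}
    (fun c hc hcc _ => by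
      refine ⟨⋃₀ c, ⟨?_, Set.sUnion_subset fun t ht => (hc ht).2⟩,
        fun _ hxc => Set.subset_sUnion_of_mem hxc⟩
      rintro u v hu hv ⟨y, hy, hyu⟩ ⟨x, hx, hxv⟩
      obtain ⟨p, hpc, hyp⟩ := Set.mem_sUnion.1 hy
      obtain ⟨q, hqc, hxq⟩ := Set.mem_sUnion.1 hx
      rcases hcc.total hpc hqc with hpq | hqp
      · obtain ⟨x, hxp, hxuv⟩ := (hc hqc).1 u v hu hv ⟨y, hpq hyp, hyu⟩ ⟨x, hxq, hxv⟩
        exact ⟨x, Set.mem_sUnion_of_mem hxp hqc, hxuv⟩
      · obtain ⟨x, hxp, hxuv⟩ := (hc hpc).1 u v hu hv ⟨y, hyp, hyu⟩ ⟨x, hqp hxq, hxv⟩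
        exact ⟨x, Set.mem_sUnion_of_mem hxp hpc, hxuv⟩)
    {x} ⟨isPreirreducible_singleton, Set.singleton_subset_iff.2 hx⟩
  have hxm' : x ∈ m := hxm rfl
  refine ⟨m, ⟨⟨⟨⟨x, hxm'⟩, hm.prop.1⟩, hm.prop.2⟩, ?_⟩, hxm'⟩
  rintro t ⟨ht, htS⟩ hmt
  exact hm.le_of_ge ⟨ht.2, htS⟩ hmt

theorem isClosed_of_maximal {X : Type*} [TopologicalSpace X] {S : Set X} (hS : IsClosed S)
    {Z : Set X} (hZ : Maximal (fun T : Set X => IsIrreducible T ∧ T ⊆ S) Z) : IsClosed Z := by
  have h : closure Z ≤ Z :=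
    hZ.le_of_ge ⟨hZ.prop.1.closure, hS.closure_subset_iff.2 hZ.prop.2⟩ subset_closure
  exact isClosed_of_closure_subset h

theorem exists_inter_nonempty {X : Type*} [TopologicalSpace X] {S : Set X} (hSc : IsClosed S)
    (hS : IsPreconnected S) {n : ℕ} (Z : Fin n → Set X)
    (hZ : Set.range Z = {Z | Maximal (fun T : Set X => IsIrreducible T ∧ T ⊆ S) Z})
    (I : Finset (Fin n)) (hI : I.Nonempty) (hI' : I ≠ Finset.univ) :
    ∃ i ∈ I, ∃ j ∉ I, (Z i ∩ Z j).Nonempty := by
  have hmax : ∀ i, Maximal (fun T : Set X => IsIrreducible T ∧ T ⊆ S) (Z i) := fun i => by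
    have h : Z i ∈ {Z | Maximal (fun T : Set X => IsIrreducible T ∧ T ⊆ S) Z} := by
      rw [← hZ]; exact ⟨i, rfl⟩
    exact h
  have hcl : ∀ i, IsClosed (Z i) := fun i => isClosed_of_maximal hSc (hmax i)
  let A : Set X := ⋃ i ∈ I, Z i
  let B : Set X := ⋃ j ∈ (↑I : Set (Fin n))ᶜ, Z j
  have hA : IsClosed A := Set.Finite.isClosed_biUnion I.finite_toSet fun i _ => hcl i
  have hB : IsClosed B := Set.Finite.isClosed_biUnion (Set.toFinite _) fun i _ => hcl i
  have hcov : S ⊆ A ∪ B := by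
    intro x hx
    obtain ⟨W, hW, hxW⟩ := exists_mem_maximal S hx
    have hW' : W ∈ Set.range Z := by rw [hZ]; exact hW
    obtain ⟨i, rfl⟩ := hW'
    by_cases hi : i ∈ I
    · exact Or.inl (Set.mem_biUnion hi hxW)
    · exact Or.inr (Set.mem_biUnion (show i ∈ (↑I : Set (Fin n))ᶜ from hi) hxW)
  have hSA : (S ∩ A).Nonempty := by
    obtain ⟨i, hi⟩ := hI
    obtain ⟨x, hx⟩ := (hmax i).prop.1.1
    exact ⟨x, (hmax i).prop.2 hx, Set.mem_biUnion hi hx⟩
  have hSB : (S ∩ B).Nonempty := by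
    obtain ⟨j, hj⟩ : ∃ j, j ∉ I := by
      by_contra h
      push Not at h
      exact hI' (Finset.eq_univ_iff_forall.2 h)
    obtain ⟨x, hx⟩ := (hmax j).prop.1.1
    exact ⟨x, (hmax j).prop.2 hx, Set.mem_biUnion (show j ∈ (↑I : Set (Fin n))ᶜ from hj) hx⟩
  obtain ⟨x, -, hxA, hxB⟩ := isPreconnected_closed_iff.1 hS A B hA hB hcov hSA hSB
  obtain ⟨i, hi, hxi⟩ := Set.mem_iUnion₂.1 hxA
  obtain ⟨j, hj, hxj⟩ := Set.mem_iUnion₂.1 hxB
  exact ⟨i, hi, j, hj, x, hxi, hxj⟩

theorem isConnected_specialFibreSet (R : Type u) [CommRing R] [IsDomain R]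
    [IsDiscreteValuationRing R] (C X : Scheme.{u})
    (f : C ⟶ Spec (CommRingCat.of (FractionRing R))) (p : X ⟶ Spec (CommRingCat.of R))
    (hC : Curve.IsSmoothProperCurve (FractionRing R) C f) (hH0 : IsIso f.appTop)
    (hX : Models.IsRegularProperModel R X p C f) :
    _root_.IsConnected (Models.specialFibreSet R (Over.mk p)) := by
  have h := Groth.Agent.S2209.result R C X f p hC hH0 hX
  have h2 := Groth.Agent.S2209.range_specialFibre_fst R X p
  have h3 : _root_.IsConnected (Set.range (Limits.pullback.fst p (Spec.map (CommRingCat.ofHom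
      (algebraMap R (IsLocalRing.ResidueField R)))))) := by
    have : ConnectedSpace ↥(Limits.pullback p (Spec.map (CommRingCat.ofHom
      (algebraMap R (IsLocalRing.ResidueField R))))) := h
    exact isConnected_range (Limits.pullback.fst p (Spec.map (CommRingCat.ofHom
      (algebraMap R (IsLocalRing.ResidueField R))))).continuous
  rw [h2] at h3
  exact h3

/-- In the closed fibre of a regular proper model, the components in a nonempty proper set of
indices meet the remaining ones. -/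
theorem components_meet (R : Type u) [CommRing R] [IsDomain R] [IsDiscreteValuationRing R]
    (C X : Scheme.{u}) (f : C ⟶ Spec (CommRingCat.of (FractionRing R)))
    (p : X ⟶ Spec (CommRingCat.of R))
    (hC : Curve.IsSmoothProperCurve (FractionRing R) C f) (hH0 : IsIso f.appTop)
    (hX : Models.IsRegularProperModel R X p C f)
    {n : ℕ} (Γ : Fin n → ArSurf.VertComp R (Over.mk p))
    (hΓ : Models.IsComponentList R (Over.mk p) Γ) (I : Finset (Fin n)) (hI : I.Nonempty)
    (hI' : I ≠ Finset.univ) :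
    ∃ i ∈ I, ∃ j ∉ I, (Set.range ((Γ i).ι.base : (Γ i).curve.left → X) ∩
      Set.range ((Γ j).ι.base : (Γ j).curve.left → X)).Nonempty :=
  exists_inter_nonempty (Models.isClosed_specialFibreSet R (Over.mk p))
    (isConnected_specialFibreSet R C X f p hC hH0 hX).isPreconnected
    (fun i => Set.range ((Γ i).ι.base : (Γ i).curve.left → X)) hΓ.2 I hI hI'

end Groth.Agent.Models.H42.FibreConn
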